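import Cfsg.Agent.H334.B2.Cert
import Cfsg.Agent.H606.OreM.Sieve

/-!
# The Monster: the degrees prime to 59 and 41 (S4173; helper334)

`deg_ge` : `χ ≠ 1`, `59 ∤ χ(1)`, `41 ∤ χ(1)` : `16134478425 ≤ χ(1)`. The hypothesis `C29` : `|C(x)| = 87` for `x` of
order 29.
-/

set_option autoImplicit false
set_option maxRecDepth 100000

open Cfsg Subgroup

namespace Cfsg.Agent.H334.B2

open Cfsg.Agent.BpSpor.MBigModel
open Cfsg.Agent.Characters.Core
open Cfsg.Agent.H606.OreM Cfsg.Agent.H606.OreM.Num Cfsg.Agent.H606.OreM.Exact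
open Cfsg.Agent.H455.OreM.Deg19 (Loc)

/-- the centralizers of the elements of order 29 -/
def C29 : Prop := ∀ x : MG, orderOf x = 29 → Nat.card (centralizer ({x} : Set MG)) = 29 * 3

theorem l71_prime : ∀ a ∈ l71, a.1.Prime := by
  intro a ha
  simp only [l71, l47, l31, l29, l23, l19, List.mem_cons, List.not_mem_nil, or_false] at ha
  rcases ha with rfl | rfl | rfl | rfl | rfl | rfl | rfl | rfl | rfl | rfl | rfl | rfl | rfl <;>
    norm_num

theorem l71_prod : 59 * (41 * (l71.map fun a => a.1 ^ a.2).prod) =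
    808017424794512875886459904961710757005754368000000000 := by
  decide +kernel

theorem eOK29 : eOK NM 29 3 28 1 = true := by decide +kernel

/-- the residues modulo 29 -/
theorem mem29 (h29 : C29) (χ : IrrCharacter MG) : ¬ 29 ∣ charDegree (χ : MG → ℂ) →
    mem [0, 1, 2, 27, 28] (charDegree (χ : MG → ℂ) % 29) = true := by
  intro hd
  obtain ⟨x, hx⟩ := Cfsg.Agent.H455.OreM.Deg19.exists_order (r := 29) (by norm_num) (by norm_num)
  rcases resX (r := 29) (k := 3) (e := 28) (f := 1) (by norm_num) eOK29 hx (h29 x hx) χ with h |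
    ⟨m, n, hm, hn, hme, hnk, h1, -, h2⟩
  · exact absurd h hd
  · have hn1 : n = 1 := by
      have h3 : n ≤ 3 := Nat.le_of_dvd (by norm_num) hnk
      interval_cases n
      · rfl
      · omega
      · omega
    subst hn1
    have hm3 : m ≤ 3 := by omega
    have key : charDegree (χ : MG → ℂ) % 29 = 1 ∨ charDegree (χ : MG → ℂ) % 29 = 2 ∨
        charDegree (χ : MG → ℂ) % 29 = 27 ∨ charDegree (χ : MG → ℂ) % 29 = 28 := by
      unfold Res at h2
      interval_cases m
      · omega
      · omega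
      · omega
    rcases key with h | h | h | h <;> rw [h] <;> rfl

theorem mem29' (h29 : C29) (χ : IrrCharacter MG) :
    mem [0, 1, 2, 27, 28] (charDegree (χ : MG → ℂ) % 29) = true := by
  by_cases hd : 29 ∣ charDegree (χ : MG → ℂ)
  · rw [Nat.mod_eq_zero_of_dvd hd]; rfl
  · exact mem29 h29 χ hd

/-- **The degrees prime to 59 and 41.** -/
theorem deg_ge (L : Loc) (h29 : C29) (χ : IrrCharacter MG) (hχ : (χ : MG → ℂ) ≠ 1)
    (h59 : ¬ 59 ∣ charDegree (χ : MG → ℂ)) (h41 : ¬ 41 ∣ charDegree (χ : MG → ℂ)) :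
    16134478425 ≤ charDegree (χ : MG → ℂ) := by
  have hpos := charDegree_pos χ
  have hmin := min_deg χ hχ
  have hdvd : charDegree (χ : MG → ℂ) ∣ 59 * (41 * (l71.map fun a => a.1 ^ a.2).prod) := by
    rw [l71_prod, ← card_M]
    exact Blocks.Knorr.charDegree_dvd χ.2
  have ht := Cfsg.Agent.H455.OreM.Deg19.testD_deg L χ
  have m71 := mem71 L χ
  have m41 := mem41 L χ
  have m59 := mod59 L χ
  have m29 := mem29' h29 χ
  generalize charDegree (χ : MG → ℂ) = d at *
  by_contra hlt
  push Not at hlt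
  have c59 : Nat.Coprime d 59 := Nat.Coprime.symm ((Nat.Prime.coprime_iff_not_dvd (by norm_num)).2 h59)
  have c41 : Nat.Coprime d 41 := Nat.Coprime.symm ((Nat.Prime.coprime_iff_not_dvd (by norm_num)).2 h41)
  have hd := c41.dvd_of_dvd_mul_left (c59.dvd_of_dvd_mul_left hdvd)
  have h := chkL_spec (x := 1) cert_all l71_prime d hd hpos (by omega)
  rw [one_mul] at h
  have e59 : bit 288230377762324482 (d % 59) = true := by
    rcases m59 with h0 | (h0 | h0) | (h0 | h0)
    · exact absurd (Nat.dvd_of_mod_eq_zero h0) h59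
    all_goals rw [h0]; decide +kernel
  have e41 : bit 1099511627778 (d % 41) = true := by
    rw [mem_iff] at m41
    simp only [List.mem_cons, List.not_mem_nil, or_false] at m41
    rcases m41 with h0 | h0 | h0
    · exact absurd (Nat.dvd_of_mod_eq_zero h0) h41
    all_goals rw [h0]; decide +kernel
  have e2 : Nat.blt d 196883 = false := by
    rw [Bool.eq_false_iff]
    intro h
    rw [Nat.blt_eq] at h
    omega
  unfold cert at h
  rw [e59, e41] at h
  replace h : (!(mem [0, 1, 35, 36, 70] (d % 71)) || Nat.blt d 196883 || !(mem [0, 1, 2, 27, 28] (d % 29)) ||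
      testD cA cB tabs d) = true := h
  rw [m71, e2, m29, ht] at h
  exact absurd h (by decide)

end Cfsg.Agent.H334.B2
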